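import Mathlib
import Cfsg.Prelude.Def_Blocks

/-!
# Radical `p`-subgroups and permutations (S4578, BLK2)
-/

set_option autoImplicit false
set_option linter.unusedSectionVars false

namespace Cfsg.Agent.H886.Full

open Cfsg Equiv

variable {α : Type*} [Finite α] {p : ℕ}

/-- Local elements: on each orbit of `R` equal to an element of `R`, commuting with `R`. -/
def loc (R : Subgroup (Perm α)) : Subgroup (Perm α) where
  carrier := {a | (∀ d ∈ R, d * a = a * d) ∧
    ∀ x : α, ∃ d ∈ R, ∀ e ∈ R, a (e x) = d (e x)}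
  one_mem' := ⟨fun d _ => by simp, fun x => ⟨1, one_mem _, fun e _ => rfl⟩⟩
  mul_mem' := by
    rintro a b ⟨ha1, ha2⟩ ⟨hb1, hb2⟩
    refine ⟨fun d hd => ?_, fun x => ?_⟩
    · rw [← mul_assoc, ha1 d hd, mul_assoc, hb1 d hd, mul_assoc]
    · obtain ⟨d, hd, hd2⟩ := ha2 x
      obtain ⟨c, hc, hc2⟩ := hb2 x
      refine ⟨d * c, mul_mem hd hc, fun e he => ?_⟩
      rw [Perm.mul_apply, hc2 e he]
      have := hd2 (c * e) (mul_mem hc he)
      rw [Perm.mul_apply] at this
      rw [this, Perm.mul_apply]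
  inv_mem' := by
    rintro a ⟨ha1, ha2⟩
    refine ⟨fun d hd => ?_, fun x => ?_⟩
    · have := ha1 d hd
      rw [eq_inv_mul_iff_mul_eq, ← mul_assoc, ← this, mul_assoc, mul_inv_cancel, mul_one]
    · obtain ⟨d, hd, hd2⟩ := ha2 x
      refine ⟨d⁻¹, inv_mem hd, fun e he => ?_⟩
      rw [Perm.inv_eq_iff_eq]
      have := hd2 (d⁻¹ * e) (mul_mem (inv_mem hd) he)
      have h2 : d ((d⁻¹ * e) x) = e x := by simp
      rw [h2] at this
      exact this.symm

theorem mem_loc {R : Subgroup (Perm α)} {a : Perm α} : a ∈ loc R ↔ (∀ d ∈ R, d * a = a * d) ∧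
    ∀ x : α, ∃ d ∈ R, ∀ e ∈ R, a (e x) = d (e x) := Iff.rfl

theorem loc_pow {R : Subgroup (Perm α)} {a : Perm α} {x : α} {d : Perm α} (hd : d ∈ R)
    (h : ∀ e ∈ R, a (e x) = d (e x)) (k : ℕ) : ∀ e ∈ R, (a ^ k) (e x) = (d ^ k) (e x) := by
  induction k with
  | zero => intro e _; rfl
  | succ k ih =>
    intro e he
    rw [pow_succ', pow_succ', Perm.mul_apply, Perm.mul_apply, ih e he]
    have := h (d ^ k * e) (mul_mem (pow_mem hd k) he)
    rw [Perm.mul_apply] at this
    exact this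

theorem exists_exp {R : Subgroup (Perm α)} (hR : IsPGroup p R) : ∃ k, ∀ r ∈ R, r ^ p ^ k = 1 := by
  classical
  have : Fintype R := Fintype.ofFinite R
  choose f hf using hR
  refine ⟨∑ r : R, f r, fun r hr => ?_⟩
  have h1 : f ⟨r, hr⟩ ≤ ∑ r : R, f r :=
    Finset.single_le_sum (f := f) (fun _ _ => Nat.zero_le _) (Finset.mem_univ _)
  obtain ⟨j, hj⟩ := Nat.exists_eq_add_of_le h1
  have h2 := congrArg Subtype.val (hf ⟨r, hr⟩)
  rw [Subgroup.coe_pow] at h2
  simp only at h2
  rw [hj, pow_add, pow_mul, h2, Subgroup.coe_one, one_pow]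

theorem loc_pgroup {R : Subgroup (Perm α)} (hR : IsPGroup p R) : IsPGroup p (loc R) := by
  obtain ⟨k, hk⟩ := exists_exp hR
  intro a
  refine ⟨k, ?_⟩
  apply Subtype.ext
  ext x
  obtain ⟨d, hd, hd2⟩ := a.2.2 x
  have h1 := loc_pow hd hd2 (p ^ k) 1 (one_mem _)
  rw [Perm.one_apply] at h1
  rw [Subgroup.coe_pow, h1, hk d hd]; rfl

/-- `loc R` is normalised by the normaliser of `R`. -/
theorem loc_conj {R : Subgroup (Perm α)} {y : Perm α} (hy : ∀ d, d ∈ R ↔ y * d * y⁻¹ ∈ R)
    {a : Perm α} (ha : a ∈ loc R) : y * a * y⁻¹ ∈ loc R := by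
  obtain ⟨h1, h2⟩ := ha
  have hy' : ∀ d ∈ R, y⁻¹ * d * y ∈ R := by
    intro d hd
    rw [hy]
    convert hd using 1
    group
  refine ⟨fun d hd => ?_, fun x => ?_⟩
  · have h3 := h1 _ (hy' d hd)
    have h4 : d * (y * a * y⁻¹) = y * ((y⁻¹ * d * y) * a) * y⁻¹ := by group
    rw [h4, h3]; group
  · obtain ⟨d, hd, hd2⟩ := h2 (y⁻¹ x)
    refine ⟨y * d * y⁻¹, (hy d).mp hd, fun e he => ?_⟩
    have h3 := hd2 _ (hy' e he)
    simp only [Perm.mul_apply] at h3 ⊢
    have h4 : y (y⁻¹ x) = x := by simp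
    rw [h4] at h3
    rw [h3]

section main

variable [hp : Fact p.Prime]

/-- A choice of central elements of order `p` on the orbits. -/
theorem exists_choice {R : Subgroup (Perm α)} (hR : IsPGroup p R) (x : α) :
    ∃ c ∈ R, (∀ e ∈ R, ∀ d ∈ R, c (d (e x)) = d (c (e x))) ∧ (∀ e ∈ R, (c ^ p) (e x) = e x) ∧
      ((∃ d ∈ R, d x ≠ x) → ∀ e ∈ R, c (e x) ≠ e x) := by
  classical
  by_cases hx : ∃ d ∈ R, d x ≠ x
  · -- the action on the orbit
    let O := MulAction.orbit R x
    let f : R →* Perm O := MulAction.toPermHom R O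
    have hf : ∀ (r : R) (y : O), ((f r y : O) : α) = (r : Perm α) y := by
      intro r y; rfl
    have hrange : IsPGroup p f.range := hR.of_surjective f.rangeRestrict f.rangeRestrict_surjective
    have hfin : Finite f.range := inferInstance
    have hnt : Nontrivial f.range := by
      obtain ⟨d, hd, hdx⟩ := hx
      refine ⟨⟨1, ⟨f ⟨d, hd⟩, ⟨_, rfl⟩⟩, fun h => ?_⟩⟩
      have h2 := congrArg Subtype.val h
      apply hdx
      have h3 := hf ⟨d, hd⟩ ⟨x, MulAction.mem_orbit_self x⟩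
      rw [← show (1 : Perm O) = f ⟨d, hd⟩ from h2] at h3
      exact h3.symm
    have hc : Nontrivial (Subgroup.center f.range) := hrange.center_nontrivial
    have hcp : IsPGroup p (Subgroup.center f.range) := hrange.to_subgroup _
    obtain ⟨z, hz⟩ : ∃ z : Subgroup.center f.range, orderOf z = p := by
      have h1 : p ∣ Nat.card (Subgroup.center f.range) := by
        obtain ⟨k, hk⟩ := (IsPGroup.iff_card).mp hcp
        rw [hk]
        have : k ≠ 0 := by
          rintro rfl
          rw [pow_zero] at hk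
          have := (Nat.card_eq_one_iff_unique.mp hk).1
          exact not_subsingleton _ this
        exact dvd_pow_self p this
      exact exists_prime_orderOf_dvd_card' p h1
    obtain ⟨c, hc2⟩ := (z : f.range).2
    have hcent : ∀ d : R, f d * f c = f c * f d := by
      intro d
      have h1 := Subgroup.mem_center_iff.mp z.2 ⟨f d, ⟨d, rfl⟩⟩
      have h2 := congrArg Subtype.val h1
      rw [Subgroup.coe_mul, Subgroup.coe_mul] at h2
      rw [hc2]; exact h2
    have hpow : f c ^ p = 1 := by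
      rw [hc2]
      have h1 : z ^ p = 1 := by rw [← hz]; exact pow_orderOf_eq_one z
      have h2 := congrArg (fun t : Subgroup.center f.range => ((t : f.range) : Perm O)) h1
      simpa using h2
    have hne : f c ≠ 1 := by
      intro h1
      have h2 : z = 1 := by
        apply Subtype.ext; apply Subtype.ext
        rw [← hc2, h1]; rfl
      rw [h2, orderOf_one] at hz
      exact hp.out.one_lt.ne hz
    have hmem : ∀ e ∈ R, e x ∈ O := fun e he => ⟨⟨e, he⟩, rfl⟩
    refine ⟨c, c.2, ?_, ?_, ?_⟩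
    · intro e he d hd
      have h1 := congrArg (fun t : Perm O => ((t ⟨e x, hmem e he⟩ : O) : α)) (hcent ⟨d, hd⟩)
      simp only [Perm.mul_apply, hf] at h1
      exact h1.symm
    · intro e he
      have h1 := congrArg (fun t : Perm O => ((t ⟨e x, hmem e he⟩ : O) : α)) hpow
      simp only [← map_pow, hf, Perm.one_apply, Subgroup.coe_pow] at h1
      exact h1
    · intro _ e he h
      apply hne
      ext y
      obtain ⟨⟨r, hr⟩, hry⟩ := y.2
      have hry' : r x = (y : α) := hry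
      rw [hf, Perm.one_apply, ← hry']
      have h1 := congrArg (fun t : Perm O => ((t ⟨e x, hmem e he⟩ : O) : α))
        (hcent ⟨r * e⁻¹, mul_mem hr (inv_mem he)⟩)
      simp only [Perm.mul_apply, hf] at h1
      rw [h] at h1
      have h2 : (e⁻¹ : Perm α) (e x) = x := by simp
      rw [h2] at h1
      exact h1.symm
  · refine ⟨1, one_mem _, fun _ _ _ _ => rfl, fun e _ => by rw [one_pow]; rfl, fun h => absurd h hx⟩

/-- The element acting as a central element of order `p` on the orbits with property `S`. -/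
theorem exists_elt {R : Subgroup (Perm α)} (hR : IsPGroup p R) (S : α → Prop)
    (hS : ∀ x, ∀ d ∈ R, S (d x) ↔ S x) :
    ∃ v ∈ loc R, v ^ p = 1 ∧ (∀ x, ¬ S x → v x = x) ∧ (∀ x, S x → (∃ d ∈ R, d x ≠ x) → v x ≠ x) := by
  classical
  -- representatives of the orbits
  let rep : α → α := fun x => (Quotient.out (s := MulAction.orbitRel R α) ⟦x⟧)
  have hrep : ∀ x, ∃ e ∈ R, e (rep x) = x := by
    intro x
    have h1 : (MulAction.orbitRel R α).r (rep x) x := Quotient.mk_out (s := MulAction.orbitRel R α) x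
    have h2 : rep x ∈ MulAction.orbit R x := h1
    obtain ⟨⟨r, hr⟩, hrx⟩ := h2
    refine ⟨r⁻¹, inv_mem hr, ?_⟩
    have : r x = rep x := hrx
    rw [← this]; simp
  have hrepinv : ∀ x, ∀ d ∈ R, rep (d x) = rep x := by
    intro x d hd
    have : (Quotient.mk (MulAction.orbitRel R α) (d x)) = Quotient.mk (MulAction.orbitRel R α) x := by
      apply Quotient.sound
      exact ⟨⟨d, hd⟩, rfl⟩
    show Quotient.out (s := MulAction.orbitRel R α) ⟦d x⟧ = Quotient.out (s := MulAction.orbitRel R α) ⟦x⟧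
    rw [this]
  choose c hcR hc1 hc2 hc3 using fun x => exists_choice hR x
  -- the map
  let g : α → Perm α := fun x => if S x then c (rep x) else 1
  have hgR : ∀ x, g x ∈ R := by
    intro x; simp only [g]; split_ifs
    · exact hcR _
    · exact one_mem _
  have hginv : ∀ x, ∀ d ∈ R, g (d x) = g x := by
    intro x d hd
    simp only [g, hS x d hd, hrepinv x d hd]
  let v : Perm α :=
    { toFun := fun x => g x x
      invFun := fun x => (g x)⁻¹ x
      left_inv := by
        intro x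
        simp only
        rw [hginv x _ (hgR x)]; simp
      right_inv := by
        intro x
        simp only
        rw [hginv x _ (inv_mem (hgR x))]; simp }
  have hv : ∀ x, v x = g x x := fun x => rfl
  have hgcomm : ∀ x, ∀ d ∈ R, g x (d x) = d (g x x) := by
    intro x d hd
    simp only [g]
    split_ifs
    · obtain ⟨e, he, hex⟩ := hrep x
      have := hc1 (rep x) e he d hd
      rwa [hex] at this
    · rfl
  have hloc : ∀ x, ∀ e ∈ R, v (e x) = g x (e x) := by
    intro x e he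
    rw [hv, hginv x e he]
  refine ⟨v, ⟨fun d hd => ?_, fun x => ⟨g x, hgR x, hloc x⟩⟩, ?_, ?_, ?_⟩
  · ext x
    rw [Perm.mul_apply, Perm.mul_apply, hv x, hloc x d hd, hgcomm x d hd]
  · ext x
    have h1 := loc_pow (hgR x) (hloc x) p 1 (one_mem _)
    rw [Perm.one_apply] at h1
    rw [h1, Perm.one_apply]
    simp only [g]
    split_ifs
    · obtain ⟨e, he, hex⟩ := hrep x
      have := hc2 (rep x) e he
      rwa [hex] at this
    · rw [one_pow]; rfl
  · intro x hx
    rw [hv]; simp only [g]; rw [if_neg hx]; rfl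
  · intro x hx hnt
    rw [hv]; simp only [g]; rw [if_pos hx]
    obtain ⟨e, he, hex⟩ := hrep x
    have h1 : ∃ d ∈ R, d (rep x) ≠ rep x := by
      obtain ⟨d, hd, hdx⟩ := hnt
      refine ⟨e⁻¹ * d * e, mul_mem (mul_mem (inv_mem he) hd) he, fun h => hdx ?_⟩
      have h2 : e ((e⁻¹ * d * e) (rep x)) = e (rep x) := by rw [h]
      simp only [Perm.mul_apply, hex] at h2
      simpa using h2
    have h2 := hc3 (rep x) h1 e he
    rwa [hex] at h2

/-- An element commuting with `R` which preserves the orbit of `x` and has order prime to `p`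
fixes `x`. -/
theorem fixes {R : Subgroup (Perm α)} (hR : IsPGroup p R) {g : Perm α} {N : ℕ} (hN : g ^ N = 1)
    (hcop : ¬ p ∣ N) (hg : ∀ d ∈ R, d * g = g * d) {x : α} (hx : ∃ r ∈ R, g x = r x) : g x = x := by
  obtain ⟨r, hr, hrx⟩ := hx
  obtain ⟨k, hk⟩ := exists_exp hR
  have h1 : ∀ j : ℕ, (g ^ j) x = (r ^ j) x := by
    intro j
    induction j with
    | zero => rfl
    | succ j ih =>
      have h2 : (r ^ j * g : Perm α) = g * r ^ j := hg _ (pow_mem hr j)
      rw [pow_succ', Perm.mul_apply, ih, ← Perm.mul_apply, ← h2, Perm.mul_apply, hrx,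
        ← Perm.mul_apply, ← pow_succ]
  have h2 : (g ^ p ^ k) x = x := by rw [h1, hk r hr]; rfl
  have h3 : (g ^ N) x = x := by rw [hN]; rfl
  have hco : Nat.Coprime (p ^ k) N :=
    Nat.Coprime.pow_left k ((Nat.Prime.coprime_iff_not_dvd hp.out).mpr hcop)
  have h4 : Function.minimalPeriod g x ∣ p ^ k := by
    rw [← Function.isPeriodicPt_iff_minimalPeriod_dvd]
    rw [Function.IsPeriodicPt, Function.IsFixedPt, ← Perm.coe_pow]; exact h2
  have h5 : Function.minimalPeriod g x ∣ N := by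
    rw [← Function.isPeriodicPt_iff_minimalPeriod_dvd]
    rw [Function.IsPeriodicPt, Function.IsFixedPt, ← Perm.coe_pow]; exact h3
  have h6 : Function.minimalPeriod g x = 1 := Nat.dvd_one.mp (hco ▸ Nat.dvd_gcd h4 h5)
  exact Function.minimalPeriod_eq_one_iff_isFixedPt.mp h6

/-- A `p`-element modulo a central `p'`-kernel. -/
theorem mem_of_pelt {H : Type*} [Group H] [Finite H] {n : ℕ}
    (π : H →* Perm (Fin n)) (hker : π.ker ≤ Subgroup.center H)
    (hkerp : ¬ p ∣ Nat.card π.ker) {D : Subgroup H} (hDp : IsPGroup p D) {h : H}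
    (hh : ∃ k : ℕ, h ^ p ^ k = 1) (hm : π h ∈ D.map π) : h ∈ D := by
  obtain ⟨d, hd, hdh⟩ := hm
  obtain ⟨k, hk⟩ := hh
  obtain ⟨l, hl⟩ := hDp ⟨d, hd⟩
  have hl' : d ^ p ^ l = 1 := by
    have := congrArg Subtype.val hl
    simpa using this
  have hc : d⁻¹ * h ∈ π.ker := by
    rw [MonoidHom.mem_ker, map_mul, map_inv, hdh, inv_mul_cancel]
  have hcen := hker hc
  have hcomm : Commute d (d⁻¹ * h) := Subgroup.mem_center_iff.mp hcen d
  have e1 : h = d * (d⁻¹ * h) := by group
  have e2 : (d⁻¹ * h) ^ p ^ (k + l) = 1 := by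
    have h1 : h ^ p ^ (k + l) = 1 := by rw [pow_add, pow_mul, hk, one_pow]
    have h2 : d ^ p ^ (k + l) = 1 := by rw [add_comm, pow_add, pow_mul, hl', one_pow]
    rw [e1, hcomm.mul_pow, h2, one_mul] at h1
    exact h1
  have e3 : (d⁻¹ * h) ^ Nat.card π.ker = 1 := by
    have h1 : (⟨d⁻¹ * h, hc⟩ : π.ker) ^ Nat.card π.ker = 1 := pow_card_eq_one'
    have := congrArg Subtype.val h1
    simpa using this
  have hco : Nat.Coprime (p ^ (k + l)) (Nat.card π.ker) :=
    Nat.Coprime.pow_left _ ((Nat.Prime.coprime_iff_not_dvd hp.out).mpr hkerp)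
  have e4 : orderOf (d⁻¹ * h) = 1 := Nat.dvd_one.mp
    (hco ▸ Nat.dvd_gcd (orderOf_dvd_of_pow_eq_one e2) (orderOf_dvd_of_pow_eq_one e3))
  have e5 : d⁻¹ * h = 1 := orderOf_eq_one_iff.mp e4
  have e6 : h = d := (inv_mul_eq_one.mp e5).symm
  rw [e6]; exact hd

theorem exists_full {n : ℕ} {H : Type*} [Group H] [Finite H]
    (π : H →* Equiv.Perm (Fin n)) (hker : π.ker ≤ Subgroup.center H)
    (hkerp : ¬ p ∣ Nat.card π.ker) {D : Subgroup H} (hDp : IsPGroup p D)
    (hrad : ∀ Q : Subgroup H, IsPGroup p Q → D ≤ Q → Q ≤ Subgroup.normalizer (D : Set H) →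
      (∀ x ∈ Subgroup.normalizer (D : Set H), ∀ y ∈ Q, x * y * x⁻¹ ∈ Q) → Q ≤ D)
    (heven : ∀ σ : Equiv.Perm (Fin n), (∃ k : ℕ, orderOf σ = p ^ k) → σ ∈ π.range) :
    ∃ u ∈ D, (∀ d ∈ D, d * u = u * d) ∧ (∃ w : ℕ, (π u).cycleType = Multiset.replicate w p) ∧
      (∀ y ∈ D, (π y).support ⊆ (π u).support) ∧
      ∀ g : H, IsPRegular p g → (∀ d ∈ D, d * g = g * d) → Equiv.Perm.Disjoint (π u) (π g) := by
  classical
  set R : Subgroup (Perm (Fin n)) := D.map π with hRdef
  have hR : IsPGroup p R := hDp.map π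
  have hA : IsPGroup p (loc R) := loc_pgroup hR
  -- `loc R` normalises `R`
  have hAR : ∀ a ∈ loc R, ∀ d ∈ R, a * d * a⁻¹ = d := by
    intro a ha d hd
    rw [← ha.1 d hd]; group
  have hnorm : loc R ≤ Subgroup.normalizer (R : Set (Perm (Fin n))) := by
    intro a ha
    rw [Subgroup.mem_normalizer_iff]
    intro d
    constructor
    · intro hd; rw [hAR a ha d hd]; exact hd
    · intro hd
      have h1 := hAR _ (inv_mem ha) _ hd
      have h2 : a⁻¹ * (a * d * a⁻¹) * a⁻¹⁻¹ = d := by group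
      rw [h2] at h1
      rw [h1]; exact hd
  set RA : Subgroup (Perm (Fin n)) := R ⊔ loc R with hRAdef
  have hRA : IsPGroup p RA := IsPGroup.to_sup_of_normal_left' hR hA hnorm
  have hRAnorm : RA ≤ Subgroup.normalizer (R : Set (Perm (Fin n))) :=
    sup_le Subgroup.le_normalizer hnorm
  set X : Subgroup H := RA.comap π with hXdef
  -- `X` is nilpotent
  let f : X →* RA := (π.comp X.subtype).codRestrict RA (fun x => x.2)
  have hfker : f.ker ≤ Subgroup.center X := by
    intro x hx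
    rw [Subgroup.mem_center_iff]
    intro y
    apply Subtype.ext
    have h1 : π (x : H) = 1 := by
      have := congrArg Subtype.val (MonoidHom.mem_ker.mp hx)
      exact this
    have h2 := hker (MonoidHom.mem_ker.mpr h1)
    exact Subgroup.mem_center_iff.mp h2 y
  have hRAnil : Group.IsNilpotent RA := hRA.isNilpotent
  have hXnil : Group.IsNilpotent X := Subgroup.isNilpotent_of_ker_le_center f hfker
  obtain ⟨Q0⟩ : Nonempty (Sylow p X) := inferInstance
  have hQ0n : (Q0 : Subgroup X).Normal :=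
    (Group.isNilpotent_of_finite_tfae.out 0 3 rfl rfl |>.mp hXnil) p hp Q0
  -- every `p`-element of `X` is in `Q0`
  have hpel : ∀ x : X, (∃ k : ℕ, (x : H) ^ p ^ k = 1) → x ∈ (Q0 : Subgroup X) := by
    rintro x ⟨k, hk⟩
    have h1 : IsPGroup p (Subgroup.zpowers x) := by
      rw [IsPGroup.iff_orderOf]
      rintro ⟨y, hy⟩
      have h2 : y ^ p ^ k = 1 := by
        obtain ⟨j, rfl⟩ := Subgroup.mem_zpowers_iff.mp hy
        rw [← zpow_natCast, ← zpow_mul, mul_comm, zpow_mul, zpow_natCast]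
        have : x ^ p ^ k = 1 := Subtype.ext (by simpa using hk)
        rw [this, one_zpow]
      have h3 : orderOf y ∣ p ^ k := orderOf_dvd_of_pow_eq_one h2
      obtain ⟨j, _, hj⟩ := (Nat.dvd_prime_pow hp.out).mp h3
      exact ⟨j, by rw [← hj]; exact Subgroup.orderOf_mk y hy⟩
    obtain ⟨Q1, hQ1⟩ := h1.exists_le_sylow
    have h2 : Q1 = Q0 := by
      have := Sylow.unique_of_normal Q0 hQ0n
      exact Subsingleton.elim _ _
    rw [h2] at hQ1
    exact hQ1 (Subgroup.mem_zpowers x)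
  set Q : Subgroup H := (Q0 : Subgroup X).map X.subtype with hQdef
  have hQp : IsPGroup p Q := Q0.isPGroup'.map _
  have hmemQ : ∀ h : H, h ∈ X → (∃ k : ℕ, h ^ p ^ k = 1) → h ∈ Q := by
    intro h hX hk
    exact ⟨⟨h, hX⟩, hpel _ hk, rfl⟩
  have hQX : ∀ h ∈ Q, h ∈ X := by
    rintro _ ⟨x, _, rfl⟩; exact x.2
  have hDpel : ∀ h ∈ D, ∃ k : ℕ, h ^ p ^ k = 1 := by
    intro h hh
    obtain ⟨k, hk⟩ := hDp ⟨h, hh⟩
    exact ⟨k, by simpa using congrArg Subtype.val hk⟩
  have hQpel : ∀ h ∈ Q, ∃ k : ℕ, h ^ p ^ k = 1 := by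
    intro h hh
    obtain ⟨k, hk⟩ := hQp ⟨h, hh⟩
    exact ⟨k, by simpa using congrArg Subtype.val hk⟩
  have hDR : ∀ h ∈ D, π h ∈ R := fun h hh => ⟨h, hh, rfl⟩
  have hconj : ∀ (x y : H), (∃ k : ℕ, y ^ p ^ k = 1) → ∃ k : ℕ, (x * y * x⁻¹) ^ p ^ k = 1 := by
    rintro x y ⟨k, hk⟩
    exact ⟨k, by rw [conj_pow, hk]; group⟩
  have hDQ : D ≤ Q := fun h hh => hmemQ h (Subgroup.mem_comap.mpr
    ((le_sup_left : R ≤ RA) (hDR h hh))) (hDpel h hh)
  have hQN : Q ≤ Subgroup.normalizer (D : Set H) := by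
    have key : ∀ q ∈ Q, ∀ d ∈ D, q * d * q⁻¹ ∈ D := by
      intro q hq d hd
      refine mem_of_pelt π hker hkerp hDp (hconj q d (hDpel d hd)) ?_
      rw [map_mul, map_mul, map_inv]
      have h1 : π q ∈ Subgroup.normalizer (R : Set (Perm (Fin n))) := hRAnorm (hQX q hq)
      exact (Subgroup.mem_normalizer_iff.mp h1 _).mp (hDR d hd)
    intro q hq
    rw [Subgroup.mem_normalizer_iff]
    intro d
    constructor
    · exact key q hq d
    · intro hd
      have h1 := key _ (inv_mem hq) _ hd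
      have h2 : q⁻¹ * (q * d * q⁻¹) * q⁻¹⁻¹ = d := by group
      rwa [h2] at h1
  have hNQ : ∀ x ∈ Subgroup.normalizer (D : Set H), ∀ y ∈ Q, x * y * x⁻¹ ∈ Q := by
    intro x hx y hy
    refine hmemQ _ ?_ (hconj x y (hQpel y hy))
    rw [hXdef, Subgroup.mem_comap, map_mul, map_mul, map_inv]
    -- `π x` normalises `R` and `loc R`
    have hxR : ∀ d, d ∈ R ↔ π x * d * (π x)⁻¹ ∈ R := by
      have key : ∀ x' ∈ Subgroup.normalizer (D : Set H), ∀ d ∈ R, π x' * d * (π x')⁻¹ ∈ R := by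
        rintro x' hx' _ ⟨d, hd, rfl⟩
        refine ⟨x' * d * x'⁻¹, (Subgroup.mem_normalizer_iff.mp hx' d).mp hd, by simp⟩
      intro d
      constructor
      · exact key x hx d
      · intro h
        have h1 := key _ (inv_mem hx) _ h
        have h2 : π x⁻¹ * (π x * d * (π x)⁻¹) * (π x⁻¹)⁻¹ = d := by rw [map_inv]; group
        rwa [h2] at h1
    have h1 : RA ≤ RA.comap (MulAut.conj (π x)).toMonoidHom := by
      refine sup_le ?_ ?_
      · intro d hd
        rw [Subgroup.mem_comap]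
        exact (le_sup_left : R ≤ RA) ((hxR d).mp hd)
      · intro a ha
        rw [Subgroup.mem_comap]
        exact (le_sup_right : loc R ≤ RA) (loc_conj hxR ha)
    exact h1 (hQX y hy)
  have hQD : Q ≤ D := hrad Q hQp hDQ hQN hNQ
  -- `loc R ≤ R`
  have hAle : loc R ≤ R := by
    intro a ha
    obtain ⟨k, hk⟩ := (IsPGroup.iff_orderOf.mp hA) ⟨a, ha⟩
    have hk' : orderOf a = p ^ k := by rw [← hk]; exact (Subgroup.orderOf_mk a ha).symm
    obtain ⟨h, rfl⟩ := heven a ⟨k, hk'⟩
    -- the `p`-part of `h`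
    obtain ⟨s, t, hst, hpt⟩ : ∃ s t : ℕ, orderOf h = p ^ s * t ∧ ¬ p ∣ t := by
      obtain ⟨s, t, ht, h2⟩ := Nat.exists_eq_pow_mul_and_not_dvd (orderOf_pos h).ne' p hp.out.ne_one
      exact ⟨s, t, h2, ht⟩
    have hco : Nat.Coprime (p ^ (s + k)) t :=
      Nat.Coprime.pow_left _ ((Nat.Prime.coprime_iff_not_dvd hp.out).mpr hpt)
    obtain ⟨m, hm1, hm2⟩ := Nat.chineseRemainder hco 1 0
    have hπ : π (h ^ m) = π h := by
      rw [map_pow]
      have h1 : m ≡ 1 [MOD orderOf (π h)] := by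
        rw [hk']
        exact hm1.of_dvd (pow_dvd_pow p (by omega))
      have h2 := (pow_eq_pow_iff_modEq (x := π h)).mpr h1
      rw [h2, pow_one]
    have hpe : (h ^ m) ^ p ^ s = 1 := by
      rw [← pow_mul]
      have h1 : orderOf h ∣ m * p ^ s := by
        rw [hst, mul_comm]
        exact mul_dvd_mul_right ((Nat.modEq_zero_iff_dvd).mp hm2) _
      exact orderOf_dvd_iff_pow_eq_one.mp h1
    have h3 : h ^ m ∈ Q := by
      refine hmemQ _ ?_ ⟨s, hpe⟩
      rw [hXdef, Subgroup.mem_comap, hπ]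
      exact (le_sup_right : loc R ≤ RA) ha
    rw [← hπ]
    exact hDR _ (hQD h3)
  -- the element `u`
  obtain ⟨v, hv, hv1, hv2, hv3⟩ := exists_elt hR (fun _ => True) (fun _ _ _ => Iff.rfl)
  obtain ⟨u, hu, huv⟩ := hAle hv
  refine ⟨u, hu, ?_, ?_, ?_, ?_⟩
  · intro d hd
    have h1 : π (d * u) = π (u * d) := by
      rw [map_mul, map_mul, huv]; exact hv.1 _ (hDR d hd)
    have h2 : (u * d)⁻¹ * (d * u) ∈ π.ker := by
      rw [MonoidHom.mem_ker, map_mul, map_inv, h1, inv_mul_cancel]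
    have h3 : (u * d)⁻¹ * (d * u) ∈ D := mul_mem (inv_mem (mul_mem hu hd)) (mul_mem hd hu)
    have h4 : (u * d)⁻¹ * (d * u) = 1 := by
      obtain ⟨k, hk⟩ := hDpel _ h3
      have e3 : ((u * d)⁻¹ * (d * u)) ^ Nat.card π.ker = 1 := by
        have h1 : (⟨_, h2⟩ : π.ker) ^ Nat.card π.ker = 1 := pow_card_eq_one'
        have := congrArg Subtype.val h1
        simpa using this
      have hco : Nat.Coprime (p ^ k) (Nat.card π.ker) :=
        Nat.Coprime.pow_left _ ((Nat.Prime.coprime_iff_not_dvd hp.out).mpr hkerp)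
      exact orderOf_eq_one_iff.mp (Nat.dvd_one.mp
        (hco ▸ Nat.dvd_gcd (orderOf_dvd_of_pow_eq_one hk) (orderOf_dvd_of_pow_eq_one e3)))
    exact (inv_mul_eq_one.mp h4).symm
  · rw [huv]
    by_cases h : v = 1
    · exact ⟨0, by rw [h]; simp⟩
    · have ho : orderOf v = p := orderOf_eq_prime hv1 h
      obtain ⟨w, hw⟩ := Perm.cycleType_prime_order (σ := v) (by rw [ho]; exact hp.out)
      exact ⟨w + 1, by rw [hw, ho]⟩
  · intro y hy x hx
    rw [Perm.mem_support] at hx ⊢
    rw [huv]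
    exact hv3 x trivial ⟨π y, hDR y hy, hx⟩
  · intro g hg hcomm x
    have hgR : ∀ d ∈ R, d * π g = π g * d := by
      rintro _ ⟨d, hd, rfl⟩
      rw [← map_mul, ← map_mul, hcomm d hd]
    rw [huv]
    by_cases hx : ∃ d ∈ R, d x ≠ x
    · right
      obtain ⟨v', hv', _, hv'2, hv'3⟩ := exists_elt hR (fun y => ∃ e ∈ R, y = e x) (by
        intro y d hd
        constructor
        · rintro ⟨e, he, h⟩
          refine ⟨d⁻¹ * e, mul_mem (inv_mem hd) he, ?_⟩
          rw [Perm.mul_apply, ← h]; simp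
        · rintro ⟨e, he, rfl⟩
          exact ⟨d * e, mul_mem hd he, rfl⟩)
      have h1 := hv'3 x ⟨1, one_mem _, rfl⟩ hx
      have h2 : ∃ e ∈ R, π g x = e x := by
        by_contra hno
        have h3 := hv'2 (π g x) hno
        have h4 := congrArg (fun t : Perm (Fin n) => t x) (hgR v' (hAle hv'))
        simp only [Perm.mul_apply] at h4
        rw [h3] at h4
        exact h1 ((π g).injective h4.symm)
      refine fixes hR (N := orderOf g) ?_ hg hgR h2
      rw [← map_pow, pow_orderOf_eq_one, map_one]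
    · left
      push Not at hx
      obtain ⟨d, hd, hd2⟩ := hv.2 x
      have := hd2 1 (one_mem _)
      rw [Perm.one_apply] at this
      rw [this, hx d hd]

end main

end Cfsg.Agent.H886.Full
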